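import Cfsg.Agent.H17.OU.BT
import Cfsg.Agent.H17.OU.PElem
import Cfsg.Agent.H17.OU.NoRep
import Cfsg.Agent.H337.Bend.Iface
import Cfsg.Agent.H329.O8Odd
import Cfsg.Agent.H340.OddLie
import Cfsg.Agent.H341.ThreeFin
import Cfsg.Agent.H217.OddElim
import Cfsg.Agent.OrdDiv.Table
import Cfsg.Agent.H979.LieSplit
import Cfsg.Agent.H580.LieBad
/-!
# S3145, piece `OddU` (helper17): no standard subgroup `K`, `K / Z(K) ≅ U₃(2 ^ n)`, with `m₂(C(K)) ≥ 2` in the simple groups
of Lie type of odd characteristic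
-/

set_option autoImplicit false
set_option linter.unusedSectionVars false

namespace Cfsg.Agent.H17.OU

open Subgroup Cfsg

universe u v

section Comp

variable {G : Type u} [Group G] [Finite G] {K : Subgroup G} {v : G}

theorem mem_fixed {g : G} : g ∈ fixedSubgroup (MulAut.conj v : MulAut G) ↔ g ∈ centralizer ({v} : Set G) := by
  rw [mem_centralizer_singleton_iff]
  change v * g * v⁻¹ = g ↔ _
  rw [mul_inv_eq_iff_eq_mul]
  exact eq_comm

/-- the component -/
theorem comp_facts (hK : IsStandardSubgroup K) (hv : v ∈ centralizer (K : Set G)) (hvv : v * v = 1) (hv1 : v ≠ 1) :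
    K ≤ fixedSubgroup (MulAut.conj v : MulAut G) ∧
      (K.subgroupOf (fixedSubgroup (MulAut.conj v : MulAut G))).Normal ∧
        IsComponent (K.subgroupOf (fixedSubgroup (MulAut.conj v : MulAut G))) := by
  have h1 : K ≤ fixedSubgroup (MulAut.conj v : MulAut G) := by
    intro k hk
    rw [mem_fixed, mem_centralizer_singleton_iff]
    exact mem_centralizer_iff.1 hv k hk
  have h2 : (K.subgroupOf (fixedSubgroup (MulAut.conj v : MulAut G))).Normal := by
    rw [normal_subgroupOf_iff_le_normalizer h1]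
    intro g hg
    exact cent_le_normalizer hK hv hvv hv1 (mem_fixed.1 hg)
  exact ⟨h1, h2, h2.isSubnormal, Cfsg.Agent.SignalizersComponents.DistinctComponents.quasisimple_congr (subgroupOfEquivOfLe h1).symm hK.1⟩

/-- the order of the central quotient of the component -/
theorem card_comp (h1 : K ≤ fixedSubgroup (MulAut.conj v : MulAut G)) :
    Nat.card (↥(K.subgroupOf (fixedSubgroup (MulAut.conj v : MulAut G))) ⧸
      center ↥(K.subgroupOf (fixedSubgroup (MulAut.conj v : MulAut G)))) ∣ Nat.card K := by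
  have h3 : Nat.card ↥(K.subgroupOf (fixedSubgroup (MulAut.conj v : MulAut G))) = Nat.card K :=
    Nat.card_congr (subgroupOfEquivOfLe h1).toEquiv
  rw [← h3]
  exact (center _).index_dvd_card

end Comp

section Num

/-- arithmetic of the order of `U₃(2 ^ n)` -/
theorem arith {n N p : ℕ} (hp : p.Prime) (hn : 2 ≤ n)
    (h : Nat.gcd 3 (2 ^ n + 1) * N = (2 ^ n) ^ 3 * (((2 ^ n) ^ 2 - 1) * ((2 ^ n) ^ 3 + 1))) (hN : ¬ p ∣ N) :
    p ≠ 2 ∧ p ≠ 3 ∧ ¬ p ∣ (2 ^ n) ^ 2 - 1 ∧ 16 ∣ N := by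
  have hg : Nat.gcd 3 (2 ^ n + 1) = 1 ∨ Nat.gcd 3 (2 ^ n + 1) = 3 :=
    (Nat.dvd_prime Nat.prime_three).1 (Nat.gcd_dvd_left _ _)
  have h3q : 3 ∣ (2 ^ n) ^ 2 - 1 := by
    rw [← pow_mul, mul_comm, pow_mul]
    norm_num
    have := Nat.sub_one_dvd_pow_sub_one 4 n
    simpa using this
  have h16 : 16 ∣ N := by
    have h1 : 2 ^ 4 ∣ Nat.gcd 3 (2 ^ n + 1) * N := by
      rw [h, ← pow_mul]
      exact (pow_dvd_pow 2 (by omega)).trans (Dvd.intro _ rfl)
    have h2 : Nat.Coprime (2 ^ 4) (Nat.gcd 3 (2 ^ n + 1)) := by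
      rcases hg with hg | hg <;> rw [hg] <;> norm_num
    exact h2.dvd_of_dvd_mul_left h1
  have h3N : 3 ∣ N := by
    rcases hg with hg | hg
    · rw [hg, one_mul] at h
      rw [h]
      exact Dvd.dvd.mul_left (Dvd.dvd.mul_right h3q _) _
    · have h1 : 3 ∣ 2 ^ n + 1 := hg ▸ Nat.gcd_dvd_right 3 (2 ^ n + 1)
      have h2 : 3 ∣ (2 ^ n) ^ 3 + 1 := by
        have h3 : 2 ^ n + 1 ∣ (2 ^ n) ^ 3 + 1 ^ 3 := Odd.nat_add_dvd_pow_add_pow _ _ (by decide)
        rw [one_pow] at h3
        exact h1.trans h3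
      obtain ⟨a, ha⟩ := h3q
      obtain ⟨b, hb⟩ := h2
      rw [hg, ha, hb] at h
      refine ⟨(2 ^ n) ^ 3 * a * b, ?_⟩
      have h5 : 3 * N = 3 * (3 * ((2 ^ n) ^ 3 * a * b)) := by rw [h]; ring
      exact Nat.eq_of_mul_eq_mul_left (by norm_num) h5
  refine ⟨?_, ?_, ?_, h16⟩
  · rintro rfl
    exact hN ((by norm_num : 2 ∣ 16).trans h16)
  · rintro rfl
    exact hN h3N
  · intro hd
    have h1 : p ∣ Nat.gcd 3 (2 ^ n + 1) * N := by
      rw [h]
      exact Dvd.dvd.mul_left (Dvd.dvd.mul_right hd _) _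
    rcases (hp.dvd_mul).1 h1 with h2 | h2
    · rcases hg with hg | hg
      · rw [hg] at h2
        exact hp.one_lt.ne' (Nat.dvd_one.1 h2)
      · rw [hg] at h2
        have h3 := (Nat.prime_dvd_prime_iff_eq hp Nat.prime_three).1 h2
        subst h3
        exact hN h3N
    · exact hN h2

end Num

section Inner

open Cfsg.Agent.LieRecognition Cfsg.Agent.StdU3.Semi Cfsg.Agent.OddHalf.D4.U3.ParDefs

/-- the `p`-elements of `N(K)` centralise `K` -/
theorem mem_centralizer_of_pElem {H : Type u} [Group H] [Finite H] {K : Subgroup H} (hq : IsQuasisimple ↥K)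
    {F : Type} [Field F] [Fintype F] {n : ℕ} (hn : 2 ≤ n) (hF : Fintype.card F = 4 ^ n)
    (hU : Nonempty ((↥K ⧸ center ↥K) ≃* Cfsg.PSU 3 F (2 ^ n))) {p : ℕ} [hp : Fact p.Prime] (hK : ¬ p ∣ Nat.card ↥K)
    (hpn : ¬ p ∣ 2 * n) (hpq : ¬ p ∣ (2 ^ n) ^ 2 - 1) {u : H} (hu : u ∈ normalizer (K : Set H)) {k : ℕ}
    (huk : u ^ p ^ k = 1) : u ∈ centralizer (K : Set H) := by
  obtain ⟨A, _, _, _, σ, _, π, I, R, ⟨P⟩⟩ := H298.UThree.exists_rep hq hn hF hU
  have h1 : I ≤ (K.subgroupOf (normalizer (K : Set H))).map π := by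
    intro i hi
    obtain ⟨x, hx, rfl⟩ := R.ex i hi
    exact ⟨x, mem_subgroupOf.2 hx, rfl⟩
  have h2 : Nat.card I ∣ Nat.card ↥K := by
    have h3 : Nat.card ↥(K.subgroupOf (normalizer (K : Set H))) = Nat.card ↥K :=
      Nat.card_congr (subgroupOfEquivOfLe le_normalizer).toEquiv
    rw [← h3]
    exact (card_dvd_of_le h1).trans (card_map_dvd _ _)
  refine (R.ker ⟨u, hu⟩).1 ?_
  refine eq_one_of_pElem R.amb P (r := p) (fun h => hK (h.trans h2)) hpn hpq (k := k) ?_
  rw [← map_pow]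
  have h3 : (⟨u, hu⟩ : ↥(normalizer (K : Set H))) ^ p ^ k = 1 := Subtype.ext huk
  rw [h3, map_one]

end Inner

/-- the classical groups -/
theorem classical {G : Type u} [Group G] [Finite G] [IsSimpleGroup G] {p : ℕ} (hp : p.Prime) (hp2 : p ≠ 2)
    (hG : H340.IsClassicalChar p G) {K : Subgroup G} (hK : IsStandardSubgroup K) {v : G}
    (hv : v ∈ centralizer (K : Set G)) (hvv : v * v = 1) (hv1 : v ≠ 1) : p ∣ Nat.card K := by
  obtain ⟨h1, h2, h3⟩ := comp_facts hK hv hvv hv1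
  have hx : (MulAut.conj v : MulAut G) * MulAut.conj v = 1 := by rw [← map_mul, hvv, map_one]
  have h4 := H340.cf_lie_of_classical.{u} hp hp2 hG (MulAut.conj v) hx
  have h5 := h4.component h3.1 h3.2.2 h3.2.1.commutator_eq_top
  have hs : IsSimpleGroup (↥(K.subgroupOf (fixedSubgroup (MulAut.conj v : MulAut G))) ⧸
      center ↥(K.subgroupOf (fixedSubgroup (MulAut.conj v : MulAut G)))) := h3.2.2
  have : Fact p.Prime := ⟨hp⟩
  obtain ⟨P, U, ⟨s, hs⟩, hU⟩ := H979.LieSplit.hasSplit_of_isLieTypeChar hp h5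
  exact (H580.LieBad.dvd_card hU hs).trans (card_comp h1)

/-- **OddU.** -/
theorem oddU : Cfsg.Agent.H337.Bend.OddU.{u} := by
  intro G _ _ _ p hp hp2 hG K hK hU hr
  have : Fact p.Prime := ⟨hp⟩
  obtain ⟨F, _, _, n, hn, hF, he⟩ := hU
  have hF' : Fintype.card F = 4 ^ n := by rw [hF, ← pow_mul, mul_comm, pow_mul]; norm_num
  have hcard := H341.ThreeFin.card_psu3 (F := F) (q := 2 ^ n) hF
  have hN : Nat.card (Cfsg.PSU 3 F (2 ^ n)) ∣ Nat.card ↥K := by
    obtain ⟨e⟩ := he
    rw [← Nat.card_congr e.toEquiv]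
    exact (center ↥K).index_dvd_card
  -- the four-group
  obtain ⟨V, hVK, hV, hV4⟩ : ∃ V : Subgroup G, V ≤ centralizer (K : Set G) ∧ (∀ v ∈ V, v * v = 1) ∧ 4 ≤ Nat.card V := by
    unfold PRankLE at hr
    push Not at hr
    obtain ⟨A, hA, hA2, hA4⟩ := hr
    refine ⟨A.map (centralizer (K : Set G)).subtype, map_subtype_le _, ?_, ?_⟩
    · rintro _ ⟨a, ha, rfl⟩
      rw [← pow_two, ← map_pow, hA2 a ha, map_one]
    · rw [← Nat.card_congr (A.equivMapOfInjective _ (subtype_injective _)).toEquiv]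
      have h2g : IsPGroup 2 A := fun a => ⟨1, Subtype.ext (by simpa using hA2 a a.2)⟩
      have : Fact (Nat.Prime 2) := ⟨Nat.prime_two⟩
      obtain ⟨m, hm⟩ := (IsPGroup.iff_card (p := 2)).1 h2g
      rw [hm] at hA4 ⊢
      have h1 : 1 < m := (Nat.pow_lt_pow_iff_right (by norm_num : 1 < 2)).1 hA4
      exact (by norm_num : 4 = 2 ^ 2).le.trans (Nat.pow_le_pow_right (by norm_num) h1)
  obtain ⟨v, hv, hv1⟩ : ∃ v ∈ V, v ≠ 1 := by
    rcases V.bot_or_exists_ne_one with h | ⟨v, hv, hv1⟩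
    · rw [h, Subgroup.card_bot] at hV4; omega
    · exact ⟨v, hv, hv1⟩
  have hc : ∃ a b : G, a * b ≠ b * a := by
    by_contra h
    push Not at h
    apply Cfsg.Agent.Lib.ComponentSolvable.quasisimple_not_solvable hK.1
    have : Group.IsSolvable G := Group.isSolvable_of_comm h
    infer_instance
  by_cases hR : Lie.IsoRee G
  · -- Ree groups
    have h1 := H217.Pf.ree_card OrdDiv.table hR
    have h2 : ∃ r : ℕ, r.Prime ∧ ¬ r ∣ Nat.card (Cfsg.PSU 3 F (2 ^ n)) := by
      obtain ⟨r, hr1, hr2⟩ := Nat.exists_infinite_primes (Nat.card (Cfsg.PSU 3 F (2 ^ n)) + 1)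
      refine ⟨r, hr2, fun h => ?_⟩
      have := Nat.le_of_dvd Nat.card_pos h
      omega
    obtain ⟨r, hr1, hr2⟩ := h2
    exact h1 (((arith hr1 hn hcard hr2).2.2.2.trans hN).trans (card_subgroup_dvd_card K))
  · have hFilt : KFacts.RgdLieCharP.IsLieFilt p G := by
      rcases hG with h | h | h | h | h | h | h | h | ⟨h, -⟩ | ⟨h, -⟩ | ⟨-, h⟩
      · exact Or.inl h
      · exact Or.inr (Or.inl h)
      · exact Or.inr (Or.inr (Or.inl h))
      · exact Or.inr (Or.inr (Or.inr (Or.inl h)))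
      · exact Or.inr (Or.inr (Or.inr (Or.inr (Or.inl h))))
      · exact Or.inr (Or.inr (Or.inr (Or.inr (Or.inr (Or.inl h)))))
      · exact Or.inr (Or.inr (Or.inr (Or.inr (Or.inr (Or.inr (Or.inl h))))))
      · exact Or.inr (Or.inr (Or.inr (Or.inr (Or.inr (Or.inr (Or.inr h))))))
      · exact absurd h hp2
      · exact absurd h hp2
      · exact absurd h hR
    have hdvd := not_dvd hp2 (KFacts.RgdLieCharP.hasFilt_of_lie hFilt) hc hK hVK hV hV4
    have hpN : ¬ p ∣ Nat.card (Cfsg.PSU 3 F (2 ^ n)) := fun h => hdvd (h.trans hN)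
    obtain ⟨-, hp3, hpq, -⟩ := arith hp hn hcard hpN
    have hvK := hVK hv
    have hvv := hV v hv
    -- classical or exceptional
    have hcase : H340.IsClassicalChar p G ∨ H340.IsExcChar p G := by
      rcases hFilt with h | h | h | h | h | h | h | h
      · exact Or.inl (Or.inl h)
      · exact Or.inl (Or.inr (Or.inl h))
      · exact Or.inl (Or.inr (Or.inr (Or.inl h)))
      · exact Or.inl (Or.inr (Or.inr (Or.inr (Or.inl h))))
      · exact Or.inl (Or.inr (Or.inr (Or.inr (Or.inr (Or.inl h)))))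
      · exact Or.inl (Or.inr (Or.inr (Or.inr (Or.inr (Or.inr h)))))
      · exact Or.inr (Or.inl h)
      · exact Or.inr (Or.inr (Or.inl h))
    rcases hcase with hcl | hex
    · exact hdvd (classical hp hp2 hcl hK hvK hvv hv1)
    · by_cases hn5 : 5 ≤ n
      · exact not_hasRep hK.1 hn5 hF' he ((hex.hasRep hp2).comp K.subtype K.subtype_injective)
      · have hpn : ¬ p ∣ 2 * n := by
          intro h
          rcases (hp.dvd_mul).1 h with h1 | h1
          · exact hp2 ((Nat.prime_dvd_prime_iff_eq hp Nat.prime_two).1 h1)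
          · have h2 := Nat.le_of_dvd (by omega) h1
            have h3 := hp.two_le
            have h4 : p = 2 ∨ p = 3 ∨ p = 4 := by omega
            rcases h4 with rfl | rfl | rfl
            · exact hp2 rfl
            · exact hp3 rfl
            · exact absurd hp (by norm_num)
        obtain ⟨h1, h2, h3⟩ := comp_facts hK hvK hvv hv1
        have hx : (MulAut.conj v : MulAut G) ^ 2 = 1 := by rw [pow_two, ← map_mul, hvv, map_one]
        have hin : H283.OddComp.Inn p (K.subgroupOf (fixedSubgroup (MulAut.conj v : MulAut G))) := by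
          rintro u ⟨k, hk⟩
          refine mem_sup_right ?_
          have he' : Nonempty ((↥(K.subgroupOf (fixedSubgroup (MulAut.conj v : MulAut G))) ⧸
              center ↥(K.subgroupOf (fixedSubgroup (MulAut.conj v : MulAut G)))) ≃* Cfsg.PSU 3 F (2 ^ n)) := by
            obtain ⟨e1⟩ := H283.OddComp.exists_quoEquiv (subgroupOfEquivOfLe h1)
            obtain ⟨e⟩ := he
            exact ⟨e1.trans e⟩
          refine mem_centralizer_of_pElem h3.2 hn hF' he' (p := p) ?_ hpn hpq ?_ hk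
          · rw [Nat.card_congr (subgroupOfEquivOfLe h1).toEquiv]
            exact hdvd
          · rw [normalizer_eq_top_iff.2 h2]
            exact mem_top u
        have h4 := H283.OddComp.odd_row hp2 hG hR (MulAut.conj v) hx _ h3 hin
        exact hdvd ((H329.O8Odd.dvd_of_charBN h4).trans (card_comp h1))

end Cfsg.Agent.H17.OU
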